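import Cfsg.Agent.H621.BR.Grp
import Cfsg.Agent.H748.BR.OmDefs

/-!
# HUB BR, orthogonal groups: the facts of `H621/BR/Grp` for the objects of `H748/BR/OmDefs` (helper621)

`rho_eq`, `BK_eq`, `vK_eq`, `wdg_eq`, `so_eq` and, with the definitions of helper748 (`q` odd or even where no hypothesis `2 ≠ 0`
is given):
* `om_irr` : `Irr (rho Q K) ⊤`;
* `om_scalar` : `a X a = 0` for all roots implies that `X` is a scalar;
* `omx`, `om_oneP`, `om_rho_x`, `om_polyDeg` : the root groups;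
* `om_so` : the non-zero invariant subspaces of `so`; `om_finrank_so`, `om_le_finrank`;
* `oms` : the action on `so`; `oms_irr`, `oms_polyDeg`, `oms_cen`.
-/

set_option autoImplicit false
set_option linter.unusedSectionVars false

namespace Cfsg.Agent.H621.BR

open Module Matrix QuadraticMap Cfsg Cfsg.Agent.LieClassical.OrthCore Cfsg.Agent.LieClassical.OrthTrans
open Cfsg.Agent.H883.BR

variable {F : Type} [Field F] {ι : Type} [Fintype ι] [DecidableEq ι] {Q : QuadraticForm F (ι → F)} (K : Type)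
  [Field K] [Algebra F K]

theorem vK_eq (v : ι → F) : H748.BR.vK K v = jm F K ι v := rfl

theorem wdg_eq {V : Type*} [AddCommGroup V] [Module K V] (B : LinearMap.BilinForm K V) (u v : V) :
    H748.BR.wdg B u v = rt B u v := rfl

theorem so_eq {V : Type*} [AddCommGroup V] [Module K V] (B : LinearMap.BilinForm K V) : H748.BR.so B = so B := rfl

theorem rho_eq : H748.BR.rho Q K = rho Q K := rfl

theorem BK_eq : H748.BR.BK Q K = BK Q K := by
  refine lin_ext (F := F) fun u => lin_ext (F := F) fun v => ?_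
  rw [BK_jm]
  exact H748.BR.BK_vK u v

theorem om_irr (hG : Good Q) : Irr (H748.BR.rho Q K) ⊤ := irr_rho K hG

theorem om_scalar (hG : Good Q) {X : Module.End K (ι → K)}
    (hX : ∀ u v : ι → F, Q u = 0 → Q v = 0 → polar Q u v = 0 →
      H748.BR.wdg (H748.BR.BK Q K) (H748.BR.vK K u) (H748.BR.vK K v) * X *
        H748.BR.wdg (H748.BR.BK Q K) (H748.BR.vK K u) (H748.BR.vK K v) = 0) : ∃ c : K, X = c • 1 := by
  refine scalar_of_roots K hG fun p => ?_
  have h1 := hX p.1.1 p.1.2 p.2.1 p.2.2.1 p.2.2.2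
  rw [BK_eq] at h1
  exact h1

/-- the root groups of `Ω(Q)` -/
noncomputable def omx (hG : Good Q) (p : Rp Q) (t : (algebraMap F K).fieldRange) : H748.BR.Om Q := xs K hG p t

theorem om_rho_x (hG : Good Q) (p : Rp Q) (t : (algebraMap F K).fieldRange) : H748.BR.rho Q K (omx K hG p t) =
    1 + (t : K) • H748.BR.wdg (H748.BR.BK Q K) (H748.BR.vK K p.1.1) (H748.BR.vK K p.1.2) := by
  rw [BK_eq]
  exact rho_xs K hG p t

theorem om_oneP (hG : Good Q) : OneP (algebraMap F K).fieldRange (omx K hG) := oneP K hG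

theorem om_polyDeg (hG : Good Q) : PolyDeg (H748.BR.rho Q K) (algebraMap F K).fieldRange (omx K hG) 1 :=
  polyDeg_rho K hG

theorem om_wdg_sq (hG : Good Q) (p : Rp Q) :
    H748.BR.wdg (H748.BR.BK Q K) (H748.BR.vK K p.1.1) (H748.BR.vK K p.1.2) *
      H748.BR.wdg (H748.BR.BK Q K) (H748.BR.vK K p.1.1) (H748.BR.vK K p.1.2) = 0 := by
  rw [BK_eq]
  exact rr_sq K hG p

theorem om_rt (hG : Good Q) (p : Rp Q) : Rt (H748.BR.rho Q K) (algebraMap F K).fieldRange ⊤
    (H748.BR.wdg (H748.BR.BK Q K) (H748.BR.vK K p.1.1) (H748.BR.vK K p.1.2)) := by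
  rw [BK_eq]
  exact rt_root K hG p

theorem om_rank (u v : ι → K) : finrank K (LinearMap.range (H748.BR.wdg (H748.BR.BK Q K) u v)) ≤ 2 :=
  finrank_range_rt K u v

theorem om_so (hG : Good Q) (h2 : (2 : K) ≠ 0) {S : Submodule K (Module.End K (ι → K))}
    (hS : Inv (ad (H748.BR.rho Q K)) ⊤ S) (hle : S ≤ H748.BR.so (H748.BR.BK Q K)) (h0 : S ≠ ⊥) :
    S = H748.BR.so (H748.BR.BK Q K) := by
  rw [BK_eq] at hle ⊢
  exact so_le_of_inv K hG h2 hS hle h0

theorem om_finrank_so (hG : Good Q) (h2 : (2 : K) ≠ 0) :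
    finrank K (H748.BR.so (H748.BR.BK Q K)) = Fintype.card ι * (Fintype.card ι - 1) / 2 := by
  rw [BK_eq]
  exact finrank_so' K hG h2

theorem om_le_finrank (hG : Good Q) (h2 : (2 : K) ≠ 0) {S : Submodule K (Module.End K (ι → K))}
    (hS : Inv (ad (H748.BR.rho Q K)) ⊤ S) {a : Module.End K (ι → K)} (ha : a ∈ S)
    (ha' : a ∈ H748.BR.so (H748.BR.BK Q K)) (ha0 : a ≠ 0) : Fintype.card ι * (Fintype.card ι - 1) / 2 ≤ finrank K S := by
  rw [BK_eq] at ha'
  exact le_finrank_of_inv K hG h2 hS ha ha' ha0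

variable (Q) in
/-- the action on `so` -/
noncomputable def oms : H748.BR.Om Q →* Module.End K (H748.BR.so (H748.BR.BK Q K)) :=
  res (H748.BR.rho Q K) (H748.BR.so (H748.BR.BK Q K)) H748.BR.so_inv

theorem coe_oms (g : H748.BR.Om Q) (X : H748.BR.so (H748.BR.BK Q K)) :
    ((oms Q K g X : H748.BR.so (H748.BR.BK Q K)) : Module.End K (ι → K)) = ad (H748.BR.rho Q K) g X := rfl

theorem oms_irr (hG : Good Q) (h2 : (2 : K) ≠ 0) {M : Subgroup (H748.BR.Om Q)} (hM : Dns (ad (H748.BR.rho Q K)) M) :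
    Irr (V := H748.BR.so (H748.BR.BK Q K)) (oms Q K) M := by
  refine irr_res H748.BR.so_inv ?_ (fun _ hT hle h0 => om_so K hG h2 hT hle h0) hM
  rw [BK_eq]
  exact so_ne_bot K hG

theorem oms_polyDeg (hG : Good Q) (h2 : (2 : K) ≠ 0) :
    PolyDeg (V := H748.BR.so (H748.BR.BK Q K)) (oms Q K) (algebraMap F K).fieldRange (omx K hG) 2 :=
  polyDeg_res h2 H748.BR.so_inv (om_wdg_sq K hG) (om_rho_x K hG)

theorem oms_cen {z : H748.BR.Om Q} {c : K} (hz : H748.BR.rho Q K z = c • 1) : oms Q K z = 1 := res_eq_one _ hz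

end Cfsg.Agent.H621.BR
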