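import Cfsg.Agent.H883.BR.Fam

/-!
# HUB BR: root elements and the conjugation module (helper621)

`a ^ 2 = 0`, `ρ g = 1 + t a`.
* `rho_inv_of_root`, `ad_root` : `ad ρ g X = X + t [a, X] - t ^ 2 a X a`;
* `closed_root` : an invariant subspace of `End V` is closed under `[a, X]`, `a X a` (characteristic not two);
* `res ρ S hS` : the restriction to an invariant subspace; `polyDeg_res`.
-/

set_option autoImplicit false
set_option linter.unusedSectionVars false

namespace Cfsg.Agent.H621.BR

open Module Cfsg.Agent.H883.BR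

variable {K : Type*} [Field K] {V : Type*} [AddCommGroup V] [Module K V] {G : Type*} [Group G]
  {ρ : G →* Module.End K V}

theorem rho_inv_of_root {g : G} {a : Module.End K V} (ha : a * a = 0) {t : K} (hg : ρ g = 1 + t • a) :
    ρ g⁻¹ = 1 - t • a := by
  have h1 : ρ g⁻¹ * ρ g = 1 := by rw [← map_mul, inv_mul_cancel, map_one]
  have h2 : ρ g * (1 - t • a) = 1 := by
    rw [hg, add_mul, one_mul, mul_sub, mul_one, smul_mul_smul_comm, ha, smul_zero, sub_zero, sub_add_cancel]
  calc ρ g⁻¹ = ρ g⁻¹ * (ρ g * (1 - t • a)) := by rw [h2, mul_one]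
    _ = 1 - t • a := by rw [← mul_assoc, h1, one_mul]

theorem ad_root {g : G} {a : Module.End K V} (ha : a * a = 0) {t : K} (hg : ρ g = 1 + t • a) (X : Module.End K V) :
    ad ρ g X = X + t • (a * X - X * a) - t ^ 2 • (a * X * a) := by
  rw [ad_apply, hg, rho_inv_of_root ha hg]
  simp only [add_mul, mul_sub, one_mul, mul_one, smul_mul_assoc, mul_smul_comm, smul_sub, smul_add, smul_smul, pow_two]
  abel

/-- invariant subspaces of `End V` are closed under `[a, X]`, `a X a` -/
theorem closed_root (h2 : (2 : K) ≠ 0) {S : Submodule K (Module.End K V)} (hS : Inv (ad ρ) ⊤ S) {g : G}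
    {a : Module.End K V} (ha : a * a = 0) (hg : ρ g = 1 + a) {X : Module.End K V} (hX : X ∈ S) :
    a * X - X * a ∈ S ∧ a * X * a ∈ S := by
  have hg1 : ρ g = 1 + (1 : K) • a := by rw [one_smul, hg]
  have hg2 : ρ g⁻¹ = 1 + (-1 : K) • a := by
    rw [rho_inv_of_root ha hg1]
    module
  have k1 := hS g trivial X hX
  have k2 := hS g⁻¹ trivial X hX
  rw [ad_root ha hg1, one_smul, one_pow, one_smul] at k1
  rw [ad_root ha hg2, neg_one_sq, one_smul, neg_smul, one_smul] at k2
  have k3 : (2 : K) • (a * X - X * a) ∈ S := by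
    have : (2 : K) • (a * X - X * a) = (X + (a * X - X * a) - a * X * a) - (X + -(a * X - X * a) - a * X * a) := by
      module
    rw [this]
    exact S.sub_mem k1 k2
  have k4 : a * X - X * a ∈ S := by
    have := S.smul_mem (2 : K)⁻¹ k3
    rwa [smul_smul, inv_mul_cancel₀ h2, one_smul] at this
  refine ⟨k4, ?_⟩
  have : a * X * a = X + (a * X - X * a) - (X + (a * X - X * a) - a * X * a) := by abel
  rw [this]
  exact S.sub_mem (S.add_mem hX k4) k1

/-- the restriction of `ad ρ` to an invariant subspace -/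
noncomputable def res (ρ : G →* Module.End K V) (S : Submodule K (Module.End K V)) (hS : Inv (ad ρ) ⊤ S) :
    G →* Module.End K S where
  toFun g := (ad ρ g).restrict fun X hX => hS g trivial X hX
  map_one' := by
    ext1 X
    apply Subtype.ext
    rw [LinearMap.coe_restrict_apply, map_one]
    rfl
  map_mul' g h := by
    ext1 X
    apply Subtype.ext
    rw [LinearMap.coe_restrict_apply, map_mul]
    rfl

theorem coe_res {S : Submodule K (Module.End K V)} (hS : Inv (ad ρ) ⊤ S) (g : G) (X : S) :
    ((res ρ S hS g X : S) : Module.End K V) = ad ρ g X := rfl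

/-- `res` acts by polynomials of degree two on root groups -/
theorem polyDeg_res (h2 : (2 : K) ≠ 0) {F : Subfield K} {S : Submodule K (Module.End K V)} (hS : Inv (ad ρ) ⊤ S)
    {I : Type*} {x : I → F → G} {a : I → Module.End K V} (ha : ∀ i, a i * a i = 0)
    (hx : ∀ i t, ρ (x i t) = 1 + (t : K) • a i) : PolyDeg (V := S) (res ρ S hS) F x 2 := by
  intro i
  have h1 : ρ (x i 1) = 1 + a i := by
    rw [hx]
    change 1 + (1 : K) • a i = _
    rw [one_smul]
  have hc : ∀ X ∈ S, a i * X - X * a i ∈ S := fun X hX => (closed_root h2 hS (ha i) h1 hX).1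
  have hc' : ∀ X ∈ S, a i * X * a i ∈ S := fun X hX => (closed_root h2 hS (ha i) h1 hX).2
  let c1 : Module.End K S :=
    { toFun := fun X => ⟨a i * X.1 - X.1 * a i, hc X.1 X.2⟩
      map_add' := fun X Y => Subtype.ext (by
        change a i * (X.1 + Y.1) - (X.1 + Y.1) * a i = (a i * X.1 - X.1 * a i) + (a i * Y.1 - Y.1 * a i)
        rw [mul_add, add_mul]
        abel)
      map_smul' := fun c X => Subtype.ext (by
        change a i * (c • X.1) - (c • X.1) * a i = c • (a i * X.1 - X.1 * a i)
        rw [mul_smul_comm, smul_mul_assoc, smul_sub]) }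
  let c2 : Module.End K S :=
    { toFun := fun X => ⟨-(a i * X.1 * a i), S.neg_mem (hc' X.1 X.2)⟩
      map_add' := fun X Y => Subtype.ext (by
        change -(a i * (X.1 + Y.1) * a i) = -(a i * X.1 * a i) + -(a i * Y.1 * a i)
        rw [mul_add, add_mul]
        abel)
      map_smul' := fun c X => Subtype.ext (by
        change -(a i * (c • X.1) * a i) = c • -(a i * X.1 * a i)
        rw [mul_smul_comm, smul_mul_assoc, smul_neg]) }
  refine ⟨fun j => if j = 0 then 1 else if j = 1 then c1 else c2, fun t => ?_⟩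
  ext1 X
  apply Subtype.ext
  rw [Finset.sum_range_succ, Finset.sum_range_succ, Finset.sum_range_one, pow_zero, pow_one, one_smul]
  rw [coe_res, ad_root (ha i) (hx i t)]
  change _ = X.1 + (t : K) • (a i * X.1 - X.1 * a i) + (t : K) ^ 2 • -(a i * X.1 * a i)
  rw [smul_neg, sub_eq_add_neg]

theorem polyDeg_one {F : Subfield K} {I : Type*} {x : I → F → G} {a : I → Module.End K V}
    (hx : ∀ i t, ρ (x i t) = 1 + (t : K) • a i) : PolyDeg ρ F x 1 := by
  intro i
  refine ⟨fun j => if j = 0 then 1 else a i, fun t => ?_⟩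
  rw [Finset.sum_range_succ, Finset.sum_range_one, pow_zero, pow_one, one_smul, hx]
  rfl

theorem res_eq_one {S : Submodule K (Module.End K V)} (hS : Inv (ad ρ) ⊤ S) {z : G} {c : K} (hz : ρ z = c • 1) :
    res ρ S hS z = 1 := by
  ext1 X
  apply Subtype.ext
  rw [coe_res, ad_apply, hz]
  have h1 : ρ z * ρ z⁻¹ = 1 := by rw [← map_mul, mul_inv_cancel, map_one]
  rw [hz, smul_mul_assoc, one_mul] at h1
  rw [smul_mul_assoc, one_mul, smul_mul_assoc, ← mul_smul_comm, h1, mul_one]
  rfl

/-- irreducibility of an invariant subspace for dense subgroups -/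
theorem irr_res {S : Submodule K (Module.End K V)} (hS : Inv (ad ρ) ⊤ S) (hS0 : S ≠ ⊥)
    (hmin : ∀ T : Submodule K (Module.End K V), Inv (ad ρ) ⊤ T → T ≤ S → T ≠ ⊥ → T = S) {M : Subgroup G}
    (hM : Dns (ad ρ) M) : Irr (V := S) (res ρ S hS) M := by
  constructor
  · exact (Submodule.nontrivial_iff_ne_bot).2 hS0
  · intro U hU
    by_cases hU0 : U = ⊥
    · exact Or.inl hU0
    right
    have h1 : Inv (ad ρ) ⊤ (U.map S.subtype) := by
      apply hM
      rintro m hm _ ⟨X, hX, rfl⟩
      exact ⟨res ρ S hS m X, hU m hm X hX, rfl⟩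
    have h3 := hmin _ h1 (Submodule.map_subtype_le _ _) fun h => hU0
      (Submodule.map_injective_of_injective S.injective_subtype (h.trans (Submodule.map_bot _).symm))
    rw [eq_top_iff]
    intro X _
    have h4 : (X : Module.End K V) ∈ U.map S.subtype := by
      rw [h3]
      exact X.2
    obtain ⟨Y, hY, hXY⟩ := h4
    rwa [← Subtype.ext hXY]

end Cfsg.Agent.H621.BR
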