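import Cfsg.Agent.H621.BR.Rat
import Cfsg.Agent.H621.BR.AdRoot
import Cfsg.Agent.LieClassical.OrthFinite

/-!
# HUB BR, orthogonal groups: the representation of `Ω(Q)` over `K` (helper621)

* `jm`, `BK Q K`, `rho Q K`, `ext_jm : Ext Q jm (BK Q K)`;
* `xg hG p t` : the root elements of `Ω(Q)`, `rho_xg`, `xg_add`, `closure_xg`;
* `irr_rho`, `scalar_of_roots`;
* `so_le_of_inv` : a non-zero `G`-invariant subspace of `so` is `so` (odd characteristic);
* `sg` : the action on `so`, `irr_sg`, `polyDeg_rho`, `polyDeg_sg`, `oneP`.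
-/

set_option autoImplicit false
set_option linter.unusedSectionVars false

namespace Cfsg.Agent.H621.BR

open Module Matrix QuadraticMap Cfsg Cfsg.Agent.LieClassical.OrthCore Cfsg.Agent.LieClassical.OrthTrans
open Cfsg.Agent.LieClassical.OrthFinite (omegaEquiv omegaEquiv_apply)
open Cfsg.Agent.H883.BR

section Defs

variable (F K : Type*) [Field F] [Field K] [Algebra F K] (ι : Type)

/-- the rational vectors -/
def jm : (ι → F) →+ (ι → K) where
  toFun v i := algebraMap F K (v i)
  map_zero' := funext fun _ => map_zero _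
  map_add' u v := funext fun i => map_add (algebraMap F K) (u i) (v i)

end Defs

variable {F : Type*} [Field F] {ι : Type} [Fintype ι] [DecidableEq ι] (Q : QuadraticForm F (ι → F)) (K : Type*)
  [Field K] [Algebra F K]

theorem jm_apply (v : ι → F) (i : ι) : jm F K ι v i = algebraMap F K (v i) := rfl

/-- the Gram matrix -/
noncomputable def gm : Matrix ι ι F := LinearMap.toMatrix₂' F (polarBilin Q)

theorem polar_gm (v w : ι → F) : polar Q v w = v ⬝ᵥ (gm Q *ᵥ w) := by
  have h1 : Matrix.toLinearMap₂' F (gm Q) = polarBilin Q := Matrix.toLinearMap₂'_toMatrix' _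
  rw [← Matrix.toLinearMap₂'_apply', h1]
  rfl

/-- the polar form over `K` -/
noncomputable def BK : LinearMap.BilinForm K (ι → K) := Matrix.toLinearMap₂' K ((gm Q).map (algebraMap F K))

theorem BK_apply (x y : ι → K) : BK Q K x y = x ⬝ᵥ ((gm Q).map (algebraMap F K) *ᵥ y) :=
  Matrix.toLinearMap₂'_apply' _ _ _

theorem BK_jm (u v : ι → F) : BK Q K (jm F K ι u) (jm F K ι v) = algebraMap F K (polar Q u v) := by
  rw [BK_apply, polar_gm]
  have h1 : (gm Q).map (algebraMap F K) *ᵥ (jm F K ι v) = jm F K ι (gm Q *ᵥ v) := by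
    ext i
    rw [jm_apply]
    exact (RingHom.map_mulVec (algebraMap F K) (gm Q) v i).symm
  rw [h1]
  exact (RingHom.map_dotProduct (algebraMap F K) u (gm Q *ᵥ v)).symm

omit [Fintype ι] [DecidableEq ι] in
variable {K} in
theorem span_jm [Finite ι] : Submodule.span K (Set.range (jm F K ι)) = ⊤ := by
  classical
  have := Fintype.ofFinite ι
  rw [eq_top_iff, ← (Pi.basisFun K ι).span_eq, Submodule.span_le]
  rintro _ ⟨i, rfl⟩
  refine Submodule.subset_span ⟨Pi.single i 1, ?_⟩
  ext k
  rw [jm_apply, Pi.basisFun_apply]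
  by_cases h : k = i
  · subst h
    simp
  · rw [Pi.single_eq_of_ne h, Pi.single_eq_of_ne h, map_zero]

variable {K} in
/-- linear maps which agree on the rational vectors -/
theorem lin_ext {X : Type*} [AddCommGroup X] [Module K X] {f g : (ι → K) →ₗ[K] X}
    (h : ∀ v, f (jm F K ι v) = g (jm F K ι v)) : f = g := by
  apply LinearMap.ext_on_range (v := jm F K ι) span_jm h

theorem BK_symm (x y : ι → K) : BK Q K x y = BK Q K y x := by
  have h1 : BK Q K = (BK Q K).flip := by
    refine lin_ext (F := F) fun u => lin_ext (F := F) fun v => ?_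
    change BK Q K (jm F K ι u) (jm F K ι v) = BK Q K (jm F K ι v) (jm F K ι u)
    rw [BK_jm, BK_jm, polar_comm]
  exact LinearMap.congr_fun (LinearMap.congr_fun h1 x) y

variable {Q}

theorem BK_nd (hQ : Nondeg Q) (x : ι → K) (hx : ∀ y, BK Q K x y = 0) : x = 0 := by
  have hdet : ((gm Q).map (algebraMap F K)).det ≠ 0 := by
    have h1 : ((gm Q).map (algebraMap F K)).det = algebraMap F K (gm Q).det :=
      (RingHom.map_det (algebraMap F K) (gm Q)).symm
    rw [h1]
    intro h
    have h2 : (gm Q).det = 0 := (map_eq_zero (algebraMap F K)).1 h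
    obtain ⟨v, hv0, hv⟩ := Matrix.exists_mulVec_eq_zero_iff.2 h2
    apply hv0
    apply hQ v
    intro w
    rw [polar_comm, polar_gm, hv, dotProduct_zero]
  by_contra hx0
  apply hdet
  rw [← Matrix.exists_vecMul_eq_zero_iff]
  refine ⟨x, hx0, ?_⟩
  ext i
  have h3 := hx (Pi.single i 1)
  rw [BK_apply, Matrix.dotProduct_mulVec, dotProduct_single, mul_one] at h3
  exact h3

theorem ext_jm (hQ : Nondeg Q) : Ext Q (jm F K ι) (BK Q K) where
  smul c v := funext fun i => map_mul (algebraMap F K) c (v i)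
  span := span_jm
  form := BK_jm Q K
  symm := BK_symm Q K
  nd := BK_nd K hQ

theorem BK_nondeg (hQ : Nondeg Q) : (BK Q K).Nondegenerate :=
  ⟨fun x hx => BK_nd K hQ x hx, fun x hx => BK_nd K hQ x fun y => by rw [BK_symm]; exact hx y⟩

/-! ### the representation -/

variable (Q) in
/-- the natural representation of `Ω(Q)` over `K` -/
noncomputable def rho : ↥(Omega F ⇑Q) →* Module.End K (ι → K) :=
  ((Matrix.toLinAlgEquiv' : Matrix ι ι K ≃ₐ[K] ((ι → K) →ₗ[K] (ι → K))) : Matrix ι ι K →* Module.End K (ι → K)).comp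
    ((((algebraMap F K).mapMatrix : Matrix ι ι F →+* Matrix ι ι K) : Matrix ι ι F →* Matrix ι ι K).comp
      ((Units.coeHom (Matrix ι ι F)).comp ((isometryGroup F ⇑Q).subtype.comp (Omega F ⇑Q).subtype)))

theorem rho_apply (g : ↥(Omega F ⇑Q)) (x : ι → K) :
    rho Q K g x = ((((g : isometryGroup F ⇑Q) : Matrix.GeneralLinearGroup ι F) : Matrix ι ι F).map (algebraMap F K)) *ᵥ x :=
  rfl

theorem rho_jm (g : ↥(Omega F ⇑Q)) (v : ι → F) :
    rho Q K g (jm F K ι v) = jm F K ι ((omegaEquiv Q g : (ι → F) ≃ₗ[F] (ι → F)) v) := by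
  rw [rho_apply, omegaEquiv_apply]
  ext i
  rw [jm_apply]
  exact (RingHom.map_mulVec (algebraMap F K) _ v i).symm

theorem mem_O' (g : ↥(Omega F ⇑Q)) : (omegaEquiv Q g : (ι → F) ≃ₗ[F] (ι → F)) ∈ O Q :=
  Subgroup.commutator_le_self _ (omegaEquiv Q g).2

theorem rho_isometry (g : ↥(Omega F ⇑Q)) (x y : ι → K) : BK Q K (rho Q K g x) (rho Q K g y) = BK Q K x y := by
  have h1 : (BK Q K).compl₁₂ (rho Q K g) (rho Q K g) = BK Q K := by
    refine lin_ext (F := F) fun u => lin_ext (F := F) fun v => ?_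
    rw [LinearMap.compl₁₂_apply, rho_jm, rho_jm, BK_jm, BK_jm, polar_map (mem_O' g)]
  exact LinearMap.congr_fun (LinearMap.congr_fun h1 x) y

omit [Field K] [Algebra F K] in
theorem jm_injective {K : Type*} [Field K] [Algebra F K] : Function.Injective (jm F K ι) := fun u v h =>
  funext fun i => (algebraMap F K).injective (congrFun h i)

theorem rho_injective : Function.Injective (rho Q K) := by
  intro g h hgh
  apply (omegaEquiv Q).injective
  apply Subtype.ext
  apply LinearEquiv.ext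
  intro v
  apply jm_injective (K := K)
  rw [← rho_jm, ← rho_jm, hgh]

/-! ### root groups -/

variable (Q) in
/-- the pairs of orthogonal singular vectors -/
abbrev Rp : Type _ := {p : (ι → F) × (ι → F) // Q p.1 = 0 ∧ Q p.2 = 0 ∧ polar Q p.1 p.2 = 0}

theorem polar_neg_smul {u v : ι → F} (h : polar Q u v = 0) (t : F) : polar Q u (-t • v) = 0 := by
  rw [polar_smul_right, h, smul_zero]

/-- the root elements -/
noncomputable def xg (hG : Good Q) (p : Rp Q) (t : F) : ↥(Omega F ⇑Q) :=
  (omegaEquiv Q).symm ⟨siegel Q p.1.1 (-t • p.1.2) p.2.1 (polar_neg_smul p.2.2.2 t), by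
    rw [hG.commutator_eq_E]
    exact siegel_mem_E _ _⟩

theorem coe_xg (hG : Good Q) (p : Rp Q) (t : F) : (omegaEquiv Q (xg hG p t) : (ι → F) ≃ₗ[F] (ι → F)) =
    siegel Q p.1.1 (-t • p.1.2) p.2.1 (polar_neg_smul p.2.2.2 t) := by
  rw [xg, MulEquiv.apply_symm_apply]

variable (Q) in
/-- the roots -/
noncomputable abbrev rr (p : Rp Q) : Module.End K (ι → K) := rt (BK Q K) (jm F K ι p.1.1) (jm F K ι p.1.2)

theorem rho_xg (hG : Good Q) (p : Rp Q) (t : F) : rho Q K (xg hG p t) = 1 + algebraMap F K t • rr Q K p := by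
  have hE := ext_jm K hG.nondeg
  refine lin_ext (F := F) fun v => ?_
  rw [rho_jm, coe_xg, siegel_apply, LinearMap.add_apply, LinearMap.smul_apply, Module.End.one_apply, rt_apply, hE.form,
    hE.form, QuadraticMap.map_smul, p.2.2.1, smul_zero, zero_mul, zero_smul, sub_zero, polar_smul_left]
  rw [map_sub, map_add, hE.smul, hE.smul, hE.smul, smul_eq_mul, map_mul, map_neg]
  module

theorem xg_add (hG : Good Q) (p : Rp Q) (s t : F) : xg hG p (s + t) = xg hG p s * xg hG p t := by
  apply (omegaEquiv Q).injective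
  apply Subtype.ext
  rw [map_mul, Subgroup.coe_mul, coe_xg, coe_xg, coe_xg,
    siegel_mul _ _ _ (by rw [polar_add_right, polar_neg_smul p.2.2.2, polar_neg_smul p.2.2.2, add_zero])]
  congr 1
  rw [neg_add, add_smul]

/-- **the root groups generate** -/
theorem closure_xg (hG : Good Q) : Subgroup.closure {g : ↥(Omega F ⇑Q) | ∃ p t, xg hG p t = g} = ⊤ := by
  set C := Subgroup.closure {g : ↥(Omega F ⇑Q) | ∃ p t, xg hG p t = g} with hC
  let f : ↥(Omega F ⇑Q) →* ((ι → F) ≃ₗ[F] (ι → F)) := (Subgroup.subtype _).comp (omegaEquiv Q).toMonoidHom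
  have hE : E Q ≤ C.map f := by
    rw [E, Subgroup.closure_le]
    rintro _ ⟨u, w, hu, hw, rfl⟩
    by_cases hu0 : u = 0
    · have h1 : siegel Q u w hu hw = 1 := by
        ext v
        rw [siegel_apply, hu0]
        simp
      rw [h1]
      exact one_mem _
    obtain ⟨h1, h2⟩ := perp_induction hG hu hu0 (P := fun w => ∃ hw : polar Q u w = 0, siegel Q u w hu hw ∈ C.map f)
      (fun a c ha hc => by
        obtain ⟨ha, ha'⟩ := ha
        obtain ⟨hc, hc'⟩ := hc
        have h3 : polar Q u (a + c) = 0 := by rw [polar_add_right, ha, hc, add_zero]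
        exact ⟨h3, siegel_add_mem hu ha hc h3 ha' hc'⟩)
      (fun a ha hua => by
        refine ⟨hua, xg hG ⟨(u, a), hu, ha, hua⟩ (-1), Subgroup.subset_closure ⟨_, _, rfl⟩, ?_⟩
        change (omegaEquiv Q (xg hG _ (-1)) : (ι → F) ≃ₗ[F] (ι → F)) = _
        rw [coe_xg]
        congr 1
        rw [neg_neg, one_smul]) w hw
    exact h2
  rw [eq_top_iff]
  intro g _
  have h1 : f g ∈ C.map f := by
    apply hE
    rw [← hG.commutator_eq_E]
    exact (omegaEquiv Q g).2
  obtain ⟨c, hc, hcg⟩ := h1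
  have h2 : c = g := by
    apply (omegaEquiv Q).injective
    exact Subtype.ext hcg
  rwa [← h2]

/-! ### the fields of `Fam` -/

/-- irreducibility -/
theorem irr_rho (hG : Good Q) : Irr (rho Q K) ⊤ := by
  have hE := ext_jm K hG.nondeg
  constructor
  · obtain ⟨x, hx0, -⟩ := hG.sing
    exact ⟨jm F K ι x, 0, hE.j_ne hG.nondeg hx0⟩
  · intro U hU
    refine hE.irr hG fun u v hu hv huv x hx => ?_
    have h1 := hU (xg hG ⟨(u, v), hu, hv, huv⟩ 1) trivial x hx
    rw [rho_xg, map_one, one_smul, LinearMap.add_apply, Module.End.one_apply] at h1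
    exact (U.add_mem_iff_right hx).1 h1

/-- `a X a = 0` for all roots -/
theorem scalar_of_roots (hG : Good Q) {X : Module.End K (ι → K)} (hX : ∀ p, rr Q K p * X * rr Q K p = 0) :
    ∃ c : K, X = c • 1 :=
  (ext_jm K hG.nondeg).scalar_of_rt hG fun u v hu hv huv => hX ⟨(u, v), hu, hv, huv⟩

theorem rr_sq (hG : Good Q) (p : Rp Q) : rr Q K p * rr Q K p = 0 := by
  have hE := ext_jm K hG.nondeg
  refine LinearMap.ext fun z => ?_
  rw [Module.End.mul_apply, rt_apply, rt_apply]
  simp only [map_sub, map_smul]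
  rw [hE.form_zero p.2.2.2, hE.form_zero' p.2.2.2, hE.form_zero (polar_self_of_sing p.2.1),
    hE.form_zero (polar_self_of_sing p.2.2.1)]
  simp

/-- invariant subspaces of `End V` are closed under `[a, X]`, `a X a` -/
theorem closed_of_inv (hG : Good Q) (h2 : (2 : K) ≠ 0) {S : Submodule K (Module.End K (ι → K))}
    (hS : Inv (ad (rho Q K)) ⊤ S) (p : Rp Q) {X : Module.End K (ι → K)} (hX : X ∈ S) :
    rr Q K p * X - X * rr Q K p ∈ S ∧ rr Q K p * X * rr Q K p ∈ S := by
  refine closed_root h2 hS (g := xg hG p 1) (rr_sq K hG p) ?_ hX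
  rw [rho_xg, map_one, one_smul]

/-- **the non-zero invariant subspaces of `so`** -/
theorem so_le_of_inv (hG : Good Q) (h2 : (2 : K) ≠ 0) {S : Submodule K (Module.End K (ι → K))}
    (hS : Inv (ad (rho Q K)) ⊤ S) (hle : S ≤ so (BK Q K)) (h0 : S ≠ ⊥) : S = so (BK Q K) :=
  le_antisymm hle ((ext_jm K hG.nondeg).so_le (Pi.basisFun K ι) (BK_nondeg K hG.nondeg) hG h2 hle h0
    fun u v hu hv huv _ hX => closed_of_inv K hG h2 hS ⟨(u, v), hu, hv, huv⟩ hX)

theorem finrank_so' (hG : Good Q) (h2 : (2 : K) ≠ 0) :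
    finrank K (so (BK Q K)) = Fintype.card ι * (Fintype.card ι - 1) / 2 :=
  finrank_so (BK_symm Q K) ((Pi.basisFun K ι).reindex (Fintype.equivFin ι)) (BK_nondeg K hG.nondeg) h2

theorem so_inv : Inv (ad (rho Q K)) ⊤ (so (BK Q K)) := by
  intro g _ X hX v w
  have h1 : ∀ v, rho Q K g (rho Q K g⁻¹ v) = v := fun v => by
    rw [← Module.End.mul_apply, ← map_mul, mul_inv_cancel, map_one, Module.End.one_apply]
  have h2 : ∀ x y, BK Q K (rho Q K g x) y = BK Q K x (rho Q K g⁻¹ y) := fun x y => by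
    rw [← rho_isometry K g x (rho Q K g⁻¹ y), h1]
  have h3 : ∀ x y, BK Q K x (rho Q K g y) = BK Q K (rho Q K g⁻¹ x) y := fun x y => by
    rw [← rho_isometry K g (rho Q K g⁻¹ x) y, h1]
  rw [ad_apply, Module.End.mul_apply, Module.End.mul_apply, Module.End.mul_apply, Module.End.mul_apply, h2, h3, hX]

/-- the dimension of the invariant subspaces containing a non-zero skew element -/
theorem le_finrank_of_inv (hG : Good Q) (h2 : (2 : K) ≠ 0) {S : Submodule K (Module.End K (ι → K))}
    (hS : Inv (ad (rho Q K)) ⊤ S) {a : Module.End K (ι → K)} (ha : a ∈ S) (ha' : a ∈ so (BK Q K)) (ha0 : a ≠ 0) :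
    Fintype.card ι * (Fintype.card ι - 1) / 2 ≤ finrank K S := by
  rw [← finrank_so' K hG h2]
  have h1 : S ⊓ so (BK Q K) = so (BK Q K) := by
    refine so_le_of_inv K hG h2 (fun g hg X hX => ⟨hS g hg X hX.1, so_inv K g hg X hX.2⟩) inf_le_right fun h => ?_
    exact ha0 ((Submodule.mem_bot K).1 (h ▸ ⟨ha, ha'⟩))
  rw [← h1]
  exact Submodule.finrank_mono inf_le_left

variable (Q) in
/-- the action on `so` -/
noncomputable def sg : ↥(Omega F ⇑Q) →* Module.End K (so (BK Q K)) := res (rho Q K) (so (BK Q K)) (so_inv K)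

theorem coe_sg (g : ↥(Omega F ⇑Q)) (X : so (BK Q K)) : ((sg Q K g X : so (BK Q K)) : Module.End K (ι → K)) =
    ad (rho Q K) g X := rfl

theorem so_ne_bot (hG : Good Q) : so (BK Q K) ≠ ⊥ := by
  have hE := ext_jm K hG.nondeg
  obtain ⟨x, y, hxy⟩ := hG.exists_hyp
  intro h0
  have h : rt (BK Q K) (jm F K ι x) (jm F K ι y) ∈ so (BK Q K) := rt_mem_so (BK_symm Q K) _ _
  rw [h0, Submodule.mem_bot] at h
  have h1 := congrArg (fun X : Module.End K (ι → K) => X (jm F K ι x)) h
  simp only [LinearMap.zero_apply] at h1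
  rw [rt_apply, hE.form_one' hxy.pair, hE.form_zero hxy.polar_left, one_smul, zero_smul, sub_zero] at h1
  exact hE.j_ne hG.nondeg hxy.left_ne h1

/-- **`so` is irreducible for the dense subgroups** -/
theorem irr_sg (hG : Good Q) (h2 : (2 : K) ≠ 0) {M : Subgroup ↥(Omega F ⇑Q)} (hM : Dns (ad (rho Q K)) M) :
    Irr (V := so (BK Q K)) (sg Q K) M :=
  irr_res (so_inv K) (so_ne_bot K hG) (fun _ hT hle h0 => so_le_of_inv K hG h2 hT hle h0) hM

theorem cen_sg {z : ↥(Omega F ⇑Q)} {c : K} (hz : rho Q K z = c • 1) : sg Q K z = 1 := res_eq_one _ hz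

/-! ### the subfield -/

variable (F) in
/-- `F` as a subfield of `K` -/
noncomputable abbrev Fs : Subfield K := (algebraMap F K).fieldRange

variable (F) in
/-- the inverse of `F → Fs` -/
noncomputable def inv (t : Fs F K) : F := Classical.choose t.2

theorem algebraMap_inv (t : Fs F K) : algebraMap F K (inv F K t) = t := Classical.choose_spec t.2

theorem inv_add (s t : Fs F K) : inv F K (s + t) = inv F K s + inv F K t := by
  apply (algebraMap F K).injective
  rw [map_add, algebraMap_inv, algebraMap_inv, algebraMap_inv]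
  rfl

/-- the root groups, indexed by the subfield -/
noncomputable def xs (hG : Good Q) (p : Rp Q) (t : Fs F K) : ↥(Omega F ⇑Q) := xg hG p (inv F K t)

theorem rho_xs (hG : Good Q) (p : Rp Q) (t : Fs F K) : rho Q K (xs K hG p t) = 1 + (t : K) • rr Q K p := by
  rw [xs, rho_xg, algebraMap_inv]

theorem xs_map (hG : Good Q) (p : Rp Q) (t : F) : xs K hG p ⟨algebraMap F K t, t, rfl⟩ = xg hG p t := by
  apply rho_injective K
  rw [rho_xs, rho_xg]

theorem oneP (hG : Good Q) : OneP (Fs F K) (xs K hG) where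
  add p s t := by rw [xs, inv_add, xg_add]; rfl
  gen := by
    rw [eq_top_iff, ← closure_xg hG]
    apply Subgroup.closure_mono
    rintro _ ⟨p, t, rfl⟩
    exact ⟨p, _, xs_map K hG p t⟩

theorem polyDeg_rho (hG : Good Q) : PolyDeg (rho Q K) (Fs F K) (xs K hG) 1 := polyDeg_one (rho_xs K hG)

theorem polyDeg_sg (hG : Good Q) (h2 : (2 : K) ≠ 0) : PolyDeg (V := so (BK Q K)) (sg Q K) (Fs F K) (xs K hG) 2 :=
  polyDeg_res h2 (so_inv K) (rr_sq K hG) (rho_xs K hG)

/-- the roots as root elements of the group -/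
theorem rt_root (hG : Good Q) (p : Rp Q) : Rt (rho Q K) (Fs F K) ⊤ (rr Q K p) := by
  refine ⟨rr_sq K hG p, ?_⟩
  rintro _ ⟨t, rfl⟩
  exact ⟨xg hG p t, trivial, rho_xg K hG p t⟩

omit [DecidableEq ι] in
theorem finrank_range_rt {B : LinearMap.BilinForm K (ι → K)} (x y : ι → K) :
    finrank K (LinearMap.range (rt B x y)) ≤ 2 := by
  classical
  have h1 : LinearMap.range (rt B x y) ≤ Submodule.span K (({x, y} : Finset (ι → K)) : Set (ι → K)) := by
    rintro _ ⟨z, rfl⟩
    rw [rt_apply]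
    exact Submodule.sub_mem _ (Submodule.smul_mem _ _ (Submodule.subset_span (by simp)))
      (Submodule.smul_mem _ _ (Submodule.subset_span (by simp)))
  exact (Submodule.finrank_mono h1).trans ((finrank_span_finset_le_card _).trans Finset.card_le_two)

end Cfsg.Agent.H621.BR
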