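import Cfsg.Agent.H621.BR.So
import Cfsg.Agent.LieClassical.OrthTrans

/-!
# HUB BR, orthogonal groups: a quadratic space over `F` inside a `K`-space (helper621)

`Ext Q j B` : `j : V₀ → V` is the extension of scalars of the quadratic space `V₀` over `F` to the `K`-space `V` with the bilinear
form `B`. The roots are the elements `rt B (j u) (j v)`, `u`, `v` orthogonal singular vectors of `V₀`.

* `Ext.scalar_of_rt` : `a X a = 0` for all roots implies that `X` is a scalar;
* `Ext.irr` : a subspace invariant under all roots is `0` or `V`;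
* `Ext.rt_mem` : a subspace of `End V` which contains the roots contains all `rt x y` (odd characteristic);
* `Ext.so_le` : a non-zero subspace of `so B` invariant under `X ↦ [a, X]`, `a X a` for the roots `a` is `so B`.
-/

set_option autoImplicit false
set_option linter.unusedSectionVars false

namespace Cfsg.Agent.H621.BR

open Module QuadraticMap Cfsg.Agent.LieClassical.OrthCore Cfsg.Agent.LieClassical.OrthTrans

variable {F K : Type*} [Field F] [Field K] [Algebra F K] {V₀ V : Type*} [AddCommGroup V₀] [Module F V₀]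
  [AddCommGroup V] [Module K V]

/-- extension of scalars of a quadratic space -/
structure Ext (Q : QuadraticForm F V₀) (j : V₀ →+ V) (B : LinearMap.BilinForm K V) : Prop where
  smul : ∀ (c : F) v, j (c • v) = algebraMap F K c • j v
  span : Submodule.span K (Set.range j) = ⊤
  form : ∀ u v, B (j u) (j v) = algebraMap F K (polar Q u v)
  symm : ∀ x y, B x y = B y x
  nd : ∀ x, (∀ y, B x y = 0) → x = 0

variable {Q : QuadraticForm F V₀} {j : V₀ →+ V} {B : LinearMap.BilinForm K V} (h : Ext Q j B)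

include h

theorem Ext.form_zero {u v : V₀} (huv : polar Q u v = 0) : B (j u) (j v) = 0 := by
  rw [h.form, huv, map_zero]

theorem Ext.form_one {u v : V₀} (huv : polar Q u v = 1) : B (j u) (j v) = 1 := by
  rw [h.form, huv, map_one]

theorem Ext.form_zero' {u v : V₀} (huv : polar Q u v = 0) : B (j v) (j u) = 0 := by
  rw [h.symm, h.form_zero huv]

theorem Ext.form_one' {u v : V₀} (huv : polar Q u v = 1) : B (j v) (j u) = 1 := by
  rw [h.symm, h.form_one huv]

/-- a vector orthogonal to all rational vectors -/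
theorem Ext.eq_zero {x : V} (hx : ∀ v : V₀, B (j v) x = 0) : x = 0 := by
  apply h.nd
  intro y
  have hy : y ∈ Submodule.span K (Set.range j) := by rw [h.span]; trivial
  induction hy using Submodule.span_induction with
  | mem z hz =>
    obtain ⟨v, rfl⟩ := hz
    rw [h.symm, hx]
  | zero => rw [map_zero]
  | add a b _ _ ha hb => rw [map_add, ha, hb, add_zero]
  | smul c a _ ha => rw [map_smul, ha, smul_zero]

/-- a subspace containing the rational vectors -/
theorem Ext.eq_top {U : Submodule K V} (hU : ∀ v : V₀, j v ∈ U) : U = ⊤ := by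
  rw [eq_top_iff, ← h.span, Submodule.span_le]
  rintro _ ⟨v, rfl⟩
  exact hU v

/-- `B x` on the rational vectors orthogonal to `u` -/
theorem Ext.eq_smul (hQ : Nondeg Q) {u : V₀} (hu : u ≠ 0) {x : V}
    (hx : ∀ v : V₀, polar Q u v = 0 → B (j v) x = 0) : ∃ c : K, x = c • j u := by
  obtain ⟨w, hw⟩ := hQ.exists_polar_eq hu 1
  refine ⟨B (j w) x, ?_⟩
  rw [← sub_eq_zero]
  apply h.eq_zero
  intro v
  have h1 : polar Q u (v - polar Q u v • w) = 0 := by
    rw [polar_sub_right, polar_smul_right, hw, smul_eq_mul, mul_one, sub_self]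
  have h2 := hx _ h1
  rw [map_sub, h.smul, map_sub, map_smul, LinearMap.sub_apply, LinearMap.smul_apply, smul_eq_mul, sub_eq_zero] at h2
  rw [map_sub, map_smul, smul_eq_mul, h.symm (j v) (j u), h.form u v, h2]
  ring

theorem Ext.j_ne (hQ : Nondeg Q) {u : V₀} (hu : u ≠ 0) : j u ≠ 0 := by
  intro h0
  obtain ⟨w, hw⟩ := hQ.exists_polar_eq hu 1
  have h1 := h.form_one hw
  rw [h0, map_zero, LinearMap.zero_apply] at h1
  exact zero_ne_one h1

omit h in
/-- singular partners: `v` singular, orthogonal to `u` and independent of it -/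
theorem exists_partner (hG : Good Q) {u : V₀} (hu : Q u = 0) (hu0 : u ≠ 0) :
    ∃ u' v v' : V₀, Hyp Q u u' ∧ Hyp Q v v' ∧ polar Q u v = 0 ∧ polar Q u v' = 0 ∧ polar Q u' v = 0 ∧
      polar Q u' v' = 0 := by
  obtain ⟨u', hu'⟩ := Cfsg.Agent.LieClassical.OrthTrans.exists_hyp hG.nondeg hu hu0
  obtain ⟨v, v', hv, h1, h2, h3, h4⟩ := hG.exists_hyp2 hu'
  exact ⟨u', v, v', hu', hv, h1, h2, h3, h4⟩

omit h in
/-- additive properties of the singular vectors orthogonal to `u` -/
theorem perp_induction (hG : Good Q) {u : V₀} (hu : Q u = 0) (hu0 : u ≠ 0) {P : V₀ → Prop}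
    (hadd : ∀ a c, P a → P c → P (a + c)) (hsing : ∀ a, Q a = 0 → polar Q u a = 0 → P a) (v : V₀)
    (hv : polar Q u v = 0) : P v := by
  obtain ⟨u', z, w, h1, h2, h3, h4, -, -⟩ := exists_partner hG hu hu0
  exact sing_induction_perp h2 h3 h4 h3 h4 (P := P) (fun a c _ _ _ _ ha hc => hadd a c ha hc)
    (fun a h5 h6 _ => hsing a h5 h6) v hv hv

omit h in
/-- a singular vector orthogonal to two given singular vectors -/
theorem exists_common (hG : Good Q) {u v : V₀} (hu : Q u = 0) (hu0 : u ≠ 0) (hv : Q v = 0) :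
    ∃ w, w ≠ 0 ∧ Q w = 0 ∧ polar Q u w = 0 ∧ polar Q w v = 0 := by
  by_cases huv : polar Q u v = 0
  · exact ⟨u, hu0, hu, polar_self_of_sing hu, huv⟩
  · have hyp : Hyp Q u ((polar Q u v)⁻¹ • v) :=
      ⟨hu, by rw [QuadraticMap.map_smul, hv, smul_zero], by
        rw [polar_smul_right, smul_eq_mul, inv_mul_cancel₀ huv]⟩
    obtain ⟨w, hw0, hw, h1, h2⟩ := hG.perp _ _ hyp
    refine ⟨w, hw0, hw, h1, ?_⟩
    rw [polar_smul_left, smul_eq_mul] at h2
    rw [polar_comm]
    exact (mul_eq_zero.1 h2).resolve_left (inv_ne_zero huv)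

/-! ### `a X a = 0` -/

theorem Ext.pair_zero (hQ : Nondeg Q) {X : Module.End K V} {u v : V₀} (hi : ∀ c : F, v ≠ c • u)
    (hi' : ∀ c : F, u ≠ c • v) (hX : rt B (j u) (j v) * X * rt B (j u) (j v) = 0) :
    B (j v) (X (j u)) = 0 ∧ B (j u) (X (j u)) = 0 := by
  obtain ⟨v', h1, h2⟩ := exists_sep hQ hi
  obtain ⟨u', h3, h4⟩ := exists_sep hQ hi'
  have e1 := congrArg (fun Y : Module.End K V => Y (j v')) hX
  simp only [LinearMap.zero_apply] at e1
  rw [rt_mul_mul, h.form_one h2, h.form_zero h1, one_mul, one_mul, zero_mul, zero_mul, sub_zero, sub_zero] at e1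
  have e2 := congrArg (fun z : V => B z (j u')) e1
  have e3 := congrArg (fun z : V => B z (j v')) e1
  simp only [map_sub, map_smul, LinearMap.sub_apply, LinearMap.smul_apply, map_zero, LinearMap.zero_apply] at e2 e3
  rw [h.form_one h4, h.form_zero h3] at e2
  rw [h.form_zero h1, h.form_one h2] at e3
  constructor
  · simpa using e2
  · simpa using e3

omit h in
theorem ne_smul_of_perp {u v v' : V₀} (h1 : polar Q v v' = 1) (h2 : polar Q u v' = 0) (c : F) : v ≠ c • u := by
  intro h
  rw [h, polar_smul_left, h2, smul_zero] at h1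
  exact zero_ne_one h1

theorem Ext.eig_of_rt (hG : Good Q) {X : Module.End K V} (hX : ∀ u v : V₀, Q u = 0 → Q v = 0 → polar Q u v = 0 →
    rt B (j u) (j v) * X * rt B (j u) (j v) = 0) {u : V₀} (hu : Q u = 0) (hu0 : u ≠ 0) : ∃ c : K, X (j u) = c • j u := by
  apply h.eq_smul hG.nondeg hu0
  have huu : B (j u) (X (j u)) = 0 := by
    obtain ⟨u', v, v', h1, h2, h3, h4, h5, h6⟩ := exists_partner hG hu hu0
    exact (h.pair_zero hG.nondeg (ne_smul_of_perp h2.pair h4)
      (ne_smul_of_perp h1.pair (polar_zero_of_comm h5)) (hX u v hu h2.left h3)).2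
  intro v hv
  refine perp_induction hG hu hu0 (P := fun v => B (j v) (X (j u)) = 0) (fun a c ha hc => ?_) (fun a ha hau => ?_) v hv
  · rw [map_add, map_add, LinearMap.add_apply, ha, hc, add_zero]
  · by_cases hc : ∃ c : F, a = c • u
    · obtain ⟨c, rfl⟩ := hc
      rw [h.smul, map_smul, LinearMap.smul_apply, huu, smul_zero]
    · push Not at hc
      refine (h.pair_zero hG.nondeg hc (fun c hc' => ?_) (hX u a hu ha hau)).1
      by_cases hc0 : c = 0
      · rw [hc0, zero_smul] at hc'
        exact hu0 hc'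
      · apply hc c⁻¹
        rw [hc', smul_smul, inv_mul_cancel₀ hc0, one_smul]

/-- orthogonal singular vectors have the same eigenvalue -/
theorem Ext.same_eig (hG : Good Q) {X : Module.End K V} (hX : ∀ u : V₀, Q u = 0 → u ≠ 0 → ∃ c : K, X (j u) = c • j u)
    {u v : V₀} (hu : Q u = 0) (hu0 : u ≠ 0) (hv : Q v = 0) (huv : polar Q u v = 0) {c : K} (hc : X (j u) = c • j u) :
    X (j v) = c • j v := by
  by_cases hd : ∃ d : F, v = d • u
  · obtain ⟨d, rfl⟩ := hd
    rw [h.smul, map_smul, hc, smul_comm]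
  push Not at hd
  have hv0 : v ≠ 0 := by simpa using hd 0
  have hd' : ∀ d : F, u ≠ d • v := by
    intro d hd'
    by_cases hd0 : d = 0
    · rw [hd0, zero_smul] at hd'
      exact hu0 hd'
    · apply hd d⁻¹
      rw [hd', smul_smul, inv_mul_cancel₀ hd0, one_smul]
  obtain ⟨v', h1, h2⟩ := exists_sep hG.nondeg hd
  obtain ⟨u', h3, h4⟩ := exists_sep hG.nondeg hd'
  obtain ⟨c', hc'⟩ := hX v hv hv0
  have huv0 : u + v ≠ 0 := by
    intro h0
    apply hd (-1)
    rw [neg_smul, one_smul, eq_neg_iff_add_eq_zero, add_comm, h0]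
  obtain ⟨m, hm⟩ := hX (u + v) (by rw [Q_add, hu, hv, huv, add_zero, add_zero]) huv0
  rw [map_add, map_add, hc, hc', smul_add] at hm
  have e2 := congrArg (fun z : V => B z (j u')) hm
  have e3 := congrArg (fun z : V => B z (j v')) hm
  simp only [map_add, map_smul, LinearMap.add_apply, LinearMap.smul_apply] at e2 e3
  rw [h.form_one h4, h.form_zero h3] at e2
  rw [h.form_zero h1, h.form_one h2] at e3
  simp only [smul_eq_mul, mul_one, mul_zero, add_zero, zero_add] at e2 e3
  rw [hc', e3, ← e2]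

/-- **`a X a = 0` for all roots `a` implies that `X` is a scalar** -/
theorem Ext.scalar_of_rt (hG : Good Q) {X : Module.End K V} (hX : ∀ u v : V₀, Q u = 0 → Q v = 0 → polar Q u v = 0 →
    rt B (j u) (j v) * X * rt B (j u) (j v) = 0) : ∃ c : K, X = c • 1 := by
  have h0 : ∀ u : V₀, Q u = 0 → u ≠ 0 → ∃ c : K, X (j u) = c • j u := fun u hu hu0 => h.eig_of_rt hG hX hu hu0
  obtain ⟨x, y, hxy⟩ := hG.exists_hyp
  obtain ⟨c, hc⟩ := h0 x hxy.left hxy.left_ne
  refine ⟨c, ?_⟩
  have key : ∀ v : V₀, X (j v) = c • j v := by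
    refine sing_induction hxy (P := fun v => X (j v) = c • j v) (fun a b ha hb => ?_) (fun a ha => ?_)
    · rw [map_add, map_add, ha, hb, smul_add]
    · obtain ⟨w, hw0, hw, h1, h2⟩ := exists_common hG hxy.left hxy.left_ne ha
      exact h.same_eig hG h0 hw hw0 ha h2 (h.same_eig hG h0 hxy.left hxy.left_ne hw h1 hc)
  have h1 : LinearMap.eqLocus X (c • (1 : Module.End K V)) = ⊤ := h.eq_top fun v => by
    rw [LinearMap.mem_eqLocus, key]
    rfl
  exact LinearMap.eqLocus_eq_top.1 h1

/-! ### irreducibility -/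

/-- **a subspace invariant under all roots** -/
theorem Ext.irr (hG : Good Q) {U : Submodule K V} (hU : ∀ u v : V₀, Q u = 0 → Q v = 0 → polar Q u v = 0 →
    ∀ x ∈ U, rt B (j u) (j v) x ∈ U) : U = ⊥ ∨ U = ⊤ := by
  by_cases hU0 : U = ⊥
  · exact Or.inl hU0
  right
  obtain ⟨x, hxU, hx0⟩ := Submodule.exists_mem_ne_zero_of_ne_bot hU0
  obtain ⟨x₀, y₀, hxy⟩ := hG.exists_hyp
  -- a singular vector not orthogonal to `x`
  obtain ⟨u, hu, hux⟩ : ∃ u : V₀, Q u = 0 ∧ B (j u) x ≠ 0 := by
    by_contra hcon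
    push Not at hcon
    apply hx0
    apply h.eq_zero
    exact sing_induction hxy (P := fun v => B (j v) x = 0)
      (fun a b ha hb => by rw [map_add, map_add, LinearMap.add_apply, ha, hb, add_zero]) hcon
  have hu0 : u ≠ 0 := by
    rintro rfl
    rw [map_zero, map_zero, LinearMap.zero_apply] at hux
    exact hux rfl
  obtain ⟨u', v, v', h1, h2, h3, h4, h5, h6⟩ := exists_partner hG hu hu0
  -- `j u ∈ U`
  have hju : j u ∈ U := by
    have e1 := hU u v hu h2.left h3 x hxU
    have e2 := hU u v' hu h2.right h4 _ e1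
    rw [rt_apply, rt_apply, map_sub, map_sub, map_smul, map_smul, map_smul, map_smul, h.form_zero' h4,
      h.form_one' h2.pair, h.form_zero (polar_self_of_sing hu), h.form_zero h3] at e2
    simp only [smul_eq_mul, mul_zero, mul_one, zero_sub, sub_zero, zero_smul, neg_smul] at e2
    have e3 := U.smul_mem (-(B (j u) x))⁻¹ e2
    rwa [← neg_smul, smul_smul, inv_mul_cancel₀ (neg_ne_zero.2 hux), one_smul] at e3
  -- orthogonal singular vectors
  have hstep : ∀ u w : V₀, Q u = 0 → u ≠ 0 → Q w = 0 → polar Q u w = 0 → j u ∈ U → j w ∈ U := by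
    intro u w hu hu0 hw huw hju
    by_cases hd : ∃ d : F, w = d • u
    · obtain ⟨d, rfl⟩ := hd
      rw [h.smul]
      exact U.smul_mem _ hju
    push Not at hd
    have hd' : ∀ d : F, u ≠ d • w := by
      intro d hd'
      by_cases hd0 : d = 0
      · rw [hd0, zero_smul] at hd'
        exact hu0 hd'
      · apply hd d⁻¹
        rw [hd', smul_smul, inv_mul_cancel₀ hd0, one_smul]
    obtain ⟨y, hy1, hy2⟩ := exists_sep hG.nondeg hd'
    have h7 : Q (y + (-Q y) • u) = 0 := by
      rw [Q_add, QuadraticMap.map_smul, hu, polar_smul_right, polar_comm Q y u, hy2]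
      simp
    have h8 : polar Q w (y + (-Q y) • u) = 0 := by
      rw [polar_add_right, polar_smul_right, hy1, polar_comm Q w u, huw, smul_zero, add_zero]
    have h9 : polar Q u (y + (-Q y) • u) = 1 := by
      rw [polar_add_right, polar_smul_right, hy2, polar_self_of_sing hu, smul_zero, add_zero]
    have e1 := hU w _ hw h7 h8 _ hju
    rwa [rt_apply, h.form_one' h9, h.form_zero' huw, one_smul, zero_smul, sub_zero] at e1
  refine h.eq_top fun v => ?_
  refine sing_induction hxy (P := fun v => j v ∈ U) (fun a b ha hb => ?_) (fun a ha => ?_) v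
  · rw [map_add]
    exact U.add_mem ha hb
  · obtain ⟨w, hw0, hw, h7, h8⟩ := exists_common hG hu hu0 ha
    exact hstep w a hw hw0 ha h8 (hstep u w hu hu0 hw h7 hju)

/-! ### the roots span -/

/-- **a subspace of `End V` which contains the roots contains all `rt x y`** -/
theorem Ext.rt_mem (hG : Good Q) (h2 : (2 : K) ≠ 0) {S : Submodule K (Module.End K V)}
    (hS : ∀ u v : V₀, Q u = 0 → Q v = 0 → polar Q u v = 0 → rt B (j u) (j v) ∈ S) (x y : V) : rt B x y ∈ S := by
  -- hyperbolic pairs
  have e1 : ∀ u v : V₀, Hyp Q u v → rt B (j u) (j v) ∈ S := by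
    intro u v huv
    obtain ⟨z, w, hzw, h3, h4, h5, h6⟩ := hG.exists_hyp2 huv
    have k1 : rt B (j (u + z)) (j (v - w)) ∈ S := by
      apply hS
      · rw [Q_add, huv.left, hzw.left, h3, add_zero, add_zero]
      · rw [sub_eq_add_neg, Q_add, QuadraticMap.map_neg, huv.right, hzw.right, polar_neg_right, h6]
        simp
      · rw [polar_add_left, polar_sub_right, polar_sub_right, huv.pair, h4, polar_comm Q z v, h5, hzw.pair]
        ring
    have k2 : rt B (j (u + w)) (j (v - z)) ∈ S := by
      apply hS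
      · rw [Q_add, huv.left, hzw.right, h4, add_zero, add_zero]
      · rw [sub_eq_add_neg, Q_add, QuadraticMap.map_neg, huv.right, hzw.left, polar_neg_right, h5]
        simp
      · rw [polar_add_left, polar_sub_right, polar_sub_right, huv.pair, h3, polar_comm Q w v, h6, hzw.pair']
        ring
    have k3 := hS u w huv.left hzw.right h4
    have k4 := hS z v hzw.left huv.right (polar_zero_of_comm h5)
    have k5 := hS u z huv.left hzw.left h3
    have k6 := hS w v hzw.right huv.right (polar_zero_of_comm h6)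
    rw [map_add, map_sub, rt_add_left, rt_sub_right, rt_sub_right] at k1 k2
    have k7 : (2 : K) • rt B (j u) (j v) ∈ S := by
      have : (2 : K) • rt B (j u) (j v) = (rt B (j u) (j v) - rt B (j u) (j w) + (rt B (j z) (j v) - rt B (j z) (j w))) +
          (rt B (j u) (j v) - rt B (j u) (j z) + (rt B (j w) (j v) - rt B (j w) (j z))) + rt B (j u) (j w) -
          rt B (j z) (j v) + rt B (j u) (j z) - rt B (j w) (j v) := by
        rw [rt_swap B (j z) (j w)]
        module
      rw [this]
      exact S.sub_mem (S.add_mem (S.sub_mem (S.add_mem (S.add_mem k1 k2) k3) k4) k5) k6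
    have k8 := S.smul_mem (2 : K)⁻¹ k7
    rwa [smul_smul, inv_mul_cancel₀ h2, one_smul] at k8
  -- singular vectors
  have e2 : ∀ u v : V₀, Q u = 0 → Q v = 0 → rt B (j u) (j v) ∈ S := by
    intro u v hu hv
    by_cases huv : polar Q u v = 0
    · exact hS u v hu hv huv
    · have hyp : Hyp Q u ((polar Q u v)⁻¹ • v) :=
        ⟨hu, by rw [QuadraticMap.map_smul, hv, smul_zero], by
          rw [polar_smul_right, smul_eq_mul, inv_mul_cancel₀ huv]⟩
      have k1 := e1 _ _ hyp
      rw [h.smul, rt_smul_right] at k1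
      have k2 := S.smul_mem (algebraMap F K (polar Q u v)) k1
      rwa [smul_smul, ← map_mul, mul_inv_cancel₀ huv, map_one, one_smul] at k2
  obtain ⟨x₀, y₀, hxy⟩ := hG.exists_hyp
  have e3 : ∀ u v : V₀, Q u = 0 → rt B (j u) (j v) ∈ S := fun u v hu =>
    sing_induction hxy (P := fun v => rt B (j u) (j v) ∈ S)
      (fun a b ha hb => by rw [map_add, rt_add_right]; exact S.add_mem ha hb) (fun a ha => e2 u a hu ha) v
  have e4 : ∀ u v : V₀, rt B (j u) (j v) ∈ S := fun u v =>
    sing_induction hxy (P := fun u => rt B (j u) (j v) ∈ S)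
      (fun a b ha hb => by rw [map_add, rt_add_left]; exact S.add_mem ha hb) (fun a ha => e3 a v ha) u
  have e5 : ∀ (u : V₀) (y : V), rt B (j u) y ∈ S := by
    intro u y
    have h1 : S.comap (rtHom B (j u)) = ⊤ := h.eq_top fun v => e4 u v
    have h3 : y ∈ S.comap (rtHom B (j u)) := by rw [h1]; trivial
    exact h3
  have h1 : S.comap ((rtHom B).flip y) = ⊤ := h.eq_top fun v => e5 v y
  have h3 : x ∈ S.comap ((rtHom B).flip y) := by rw [h1]; trivial
  exact h3

/-! ### subspaces of `so B` -/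

/-- a subspace containing `rt (j u) (j v)`, closed under all brackets with `rt x y` -/
theorem Ext.rt_mem_of_ideal (hG : Good Q) (h2 : (2 : K) ≠ 0) {S : Submodule K (Module.End K V)}
    (hS : ∀ (x y : V₀), ∀ X ∈ S, rt B (j x) (j y) * X - X * rt B (j x) (j y) ∈ S) {u v : V₀} (hu : Q u = 0)
    (hv : Q v = 0) (huv : polar Q u v = 0) (hi : ∀ c : F, v ≠ c • u) (hi' : ∀ c : F, u ≠ c • v)
    (huS : rt B (j u) (j v) ∈ S) (x y : V) : rt B x y ∈ S := by
  -- the bracket
  have br : ∀ x y a b : V₀, rt B (j x) (j y) ∈ S →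
      rt B (j (polar Q b x • a - polar Q a x • b)) (j y) + rt B (j x) (j (polar Q b y • a - polar Q a y • b)) ∈ S := by
    intro x y a b hxy
    have k1 := hS a b _ hxy
    rw [bracket_rt (rt_mem_so h.symm _ _), rt_apply, rt_apply, h.form, h.form, h.form, h.form] at k1
    simpa only [map_sub, h.smul] using k1
  have hu0 : u ≠ 0 := by simpa using hi' 0
  have hv0 : v ≠ 0 := by simpa using hi 0
  -- partners
  obtain ⟨v₁, hv1, hv2⟩ := exists_sep hG.nondeg hi
  obtain ⟨vs, hvs, huvs⟩ : ∃ vs, Hyp Q v vs ∧ polar Q u vs = 0 := by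
    refine ⟨v₁ + (-Q v₁) • v, ⟨hv, ?_, ?_⟩, ?_⟩
    · rw [Q_add, QuadraticMap.map_smul, hv, polar_smul_right, polar_comm Q v₁ v, hv2]
      simp
    · rw [polar_add_right, polar_smul_right, hv2, polar_self_of_sing hv, smul_zero, add_zero]
    · rw [polar_add_right, polar_smul_right, hv1, huv, smul_zero, add_zero]
  obtain ⟨us, hus, h3, h4⟩ := exists_hyp_perp hG.nondeg hvs hu hu0 (polar_zero_of_comm huv)
    (polar_zero_of_comm huvs)
  obtain ⟨a, c, ⟨a1, a2, a3, a4⟩, ⟨c1, c2, c3, c4⟩, hac⟩ := exists_perp4 hG.nondeg hG.dim hvs hus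
    (polar_zero_of_comm huv) h3 (polar_zero_of_comm huvs) h4
  have hca : polar Q c a = 1 := by rw [polar_comm, hac]
  -- Step A: `rt x v` for `x ⊥ u, v`
  have sA : ∀ x : V₀, polar Q u x = 0 → polar Q v x = 0 → rt B (j x) (j v) ∈ S := by
    intro x hux hvx
    have k := br u v x us huS
    rw [hus.pair', polar_comm Q x u, hux, polar_comm Q us v, h3, polar_comm Q x v, hvx, one_smul, zero_smul, zero_smul,
      sub_zero, sub_zero, map_zero] at k
    rwa [show rt B (j u) 0 = 0 by rw [← rtHom_apply, map_zero], add_zero] at k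
  -- Step B: `rt x v` for `x ⊥ v`
  have sB' : rt B (j us) (j v) ∈ S := by
    have k := br a v us c (sA a a3 a1)
    rw [hca, a4, polar_comm Q c v, c1, polar_comm Q us v, h3, one_smul, zero_smul, zero_smul, sub_zero,
      sub_zero, map_zero] at k
    rwa [show rt B (j a) 0 = 0 by rw [← rtHom_apply, map_zero], add_zero] at k
  have sB : ∀ x : V₀, polar Q v x = 0 → rt B (j x) (j v) ∈ S := by
    intro x hvx
    have e : x = LieClassical.OrthTrans.proj Q u us x + (polar Q us x • u + polar Q u x • us) := by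
      rw [LieClassical.OrthTrans.proj]
      module
    rw [e, map_add, map_add, h.smul, h.smul, rt_add_left, rt_add_left, rt_smul_left, rt_smul_left]
    refine S.add_mem (sA _ (polar_proj_left hus x) ?_) (S.add_mem (S.smul_mem _ huS) (S.smul_mem _ sB'))
    rw [LieClassical.OrthTrans.proj, polar_sub_right, polar_sub_right, polar_smul_right, polar_smul_right, hvx, polar_comm Q v u, huv, h3]
    simp
  -- Step C: `rt x v` for all `x`
  have sC' : rt B (j vs) (j v) ∈ S := by
    have k1 := br a v vs c (sA a a3 a1)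
    have k2 := br c v vs a (sA c c3 c1)
    rw [hca, a2, polar_comm Q c v, c1, hvs.pair', one_smul, zero_smul, zero_smul, one_smul, sub_zero, zero_sub, map_neg,
      rt_neg_right] at k1
    rw [hac, c2, polar_comm Q a v, a1, hvs.pair', one_smul, zero_smul, zero_smul, one_smul, sub_zero, zero_sub, map_neg,
      rt_neg_right, rt_swap B (j a) (j c), neg_neg] at k2
    have k3 := S.smul_mem (2 : K)⁻¹ (S.add_mem k1 k2)
    have k4 : rt B (j vs) (j v) + -rt B (j a) (j c) + (rt B (j vs) (j v) + rt B (j a) (j c)) =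
        (2 : K) • rt B (j vs) (j v) := by module
    rwa [k4, smul_smul, inv_mul_cancel₀ h2, one_smul] at k3
  have sC : ∀ x : V₀, rt B (j x) (j v) ∈ S := by
    intro x
    have e : x = (x - polar Q v x • vs) + polar Q v x • vs := by module
    rw [e, map_add, h.smul, rt_add_left, rt_smul_left]
    refine S.add_mem (sB _ ?_) (S.smul_mem _ sC')
    rw [polar_sub_right, polar_smul_right, hvs.pair]
    simp
  -- Step D: everything
  have sD : ∀ z w : V₀, z ≠ 0 → (∀ x, rt B (j x) (j z) ∈ S) → polar Q z w = 0 → ∀ x, rt B (j x) (j w) ∈ S := by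
    intro z w hz hzS hzw x
    obtain ⟨b, hb⟩ := hG.nondeg.exists_polar_eq hz 1
    have k := br x z w b (hzS x)
    rw [polar_comm Q b z, hb, polar_comm Q w z, hzw, one_smul, zero_smul, sub_zero] at k
    exact (S.add_mem_iff_right (hzS _)).1 k
  refine h.rt_mem hG h2 (fun p w _ _ _ => ?_) x y
  have hd := hG.dim
  obtain ⟨z, hz0, hz⟩ := exists_perp_ne (Q := Q) ![v, w] (by omega)
  exact sD z w hz0 (sD v z hv0 sC (hz 0)) (polar_zero_of_comm (hz 1)) p

/-- **a non-zero subspace of `so B` which is invariant under the roots is `so B`** -/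
theorem Ext.so_le {ι : Type*} [Fintype ι] [DecidableEq ι] (b : Basis ι K V) (hB : B.Nondegenerate)
    (hG : Good Q) (h2 : (2 : K) ≠ 0) {S : Submodule K (Module.End K V)} (hS : S ≤ so B)
    (hS0 : S ≠ ⊥) (h1 : ∀ u v : V₀, Q u = 0 → Q v = 0 → polar Q u v = 0 → ∀ X ∈ S,
      rt B (j u) (j v) * X - X * rt B (j u) (j v) ∈ S ∧ rt B (j u) (j v) * X * rt B (j u) (j v) ∈ S) : so B ≤ S := by
  obtain ⟨X, hXS, hX0⟩ := Submodule.exists_mem_ne_zero_of_ne_bot hS0
  -- a root in `S`
  obtain ⟨u, v, hu, hv, huv, hne⟩ : ∃ u v : V₀, Q u = 0 ∧ Q v = 0 ∧ polar Q u v = 0 ∧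
      rt B (j u) (j v) * X * rt B (j u) (j v) ≠ 0 := by
    by_contra hcon
    push Not at hcon
    obtain ⟨c, hc⟩ := h.scalar_of_rt hG hcon
    obtain ⟨x, y, hxy⟩ := hG.exists_hyp
    have k := hS hXS (j x) (j y)
    rw [hc, LinearMap.smul_apply, LinearMap.smul_apply, Module.End.one_apply, Module.End.one_apply, map_smul, map_smul,
      LinearMap.smul_apply, h.form_one hxy.pair, smul_eq_mul, mul_one] at k
    have k2 : (2 : K) * c = 0 := by linear_combination k
    apply hX0
    rw [hc, (mul_eq_zero.1 k2).resolve_left h2, zero_smul]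
  have k1 := (h1 u v hu hv huv X hXS).2
  rw [rt_mul_mul_skew h.symm h2 (hS hXS)] at hne k1
  have hc0 : B (j v) (X (j u)) ≠ 0 := by
    intro h0
    rw [h0, zero_smul] at hne
    exact hne rfl
  have hr0 : rt B (j u) (j v) ≠ 0 := by
    intro h0
    rw [h0, smul_zero] at hne
    exact hne rfl
  have huS : rt B (j u) (j v) ∈ S := by
    have k2 := S.smul_mem (B (j v) (X (j u)))⁻¹ k1
    rwa [smul_smul, inv_mul_cancel₀ hc0, one_smul] at k2
  have hi : ∀ c : F, v ≠ c • u := by
    rintro c rfl
    apply hr0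
    rw [h.smul, rt_smul_right, rt_self, smul_zero]
  have hi' : ∀ c : F, u ≠ c • v := by
    rintro c rfl
    apply hr0
    rw [h.smul, rt_smul_left, rt_self, smul_zero]
  -- `S` is an ideal
  have hid : ∀ (x y : V), ∀ Y ∈ S, rt B x y * Y - Y * rt B x y ∈ S := by
    intro x y Y hY
    let S' : Submodule K (Module.End K V) :=
      { carrier := {Z | Z * Y - Y * Z ∈ S}
        zero_mem' := by
          change (0 : Module.End K V) * Y - Y * 0 ∈ S
          rw [zero_mul, mul_zero, sub_zero]
          exact S.zero_mem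
        add_mem' := fun {Z Z'} hZ hZ' => by
          change (Z + Z') * Y - Y * (Z + Z') ∈ S
          have : (Z + Z') * Y - Y * (Z + Z') = (Z * Y - Y * Z) + (Z' * Y - Y * Z') := by
            rw [add_mul, mul_add]
            abel
          rw [this]
          exact S.add_mem hZ hZ'
        smul_mem' := fun c Z hZ => by
          change (c • Z) * Y - Y * (c • Z) ∈ S
          rw [smul_mul_assoc, mul_smul_comm, ← smul_sub]
          exact S.smul_mem _ hZ }
    exact h.rt_mem hG h2 (S := S') (fun u v hu hv huv => (h1 u v hu hv huv Y hY).1) x y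
  intro Z hZ
  exact mem_of_rt h.symm b hB h2 (fun x y => h.rt_mem_of_ideal hG h2 (fun x y => hid _ _) hu hv huv hi hi' huS x y) hZ

end Cfsg.Agent.H621.BR
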